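import Cfsg.Agent.H419.EP.Iface
import Cfsg.Agent.H921.SympDim

/-!
# S3499, class C6: general lemmas (helper491)

* `mem_of_comm` : in an extremely primitive group a `p`-element `k ≠ 1` of a normal `p`-subgroup of `A` has `C_Q(k) ≤ A`;
* `mem_hat_of_comm` : the same in the matrix group;
* `scalar_of_fix` : `R` absolutely irreducible with commutators and squares in `{1, -1}`; an element of odd order which
  normalises `R` and fixes pointwise a subspace of dimension more than `n / 2` is scalar;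
* `exists_invol` : a group of order more than eight with commutators and squares in `{1, -1}` contains a noncentral
  involution.
-/

set_option autoImplicit false

namespace Cfsg.Agent.H491.EP

open Subgroup Cfsg.Agent.H284 Cfsg.Agent.H419.EP Cfsg.Geo
open scoped MatrixGroups Matrix

section T1

variable {Q : Type*} [Group Q] [Finite Q] {A : Subgroup Q} {Γ : Subgroup (MulAut Q)}

/-- a normal `p`-subgroup lies in the core of every Sylow subgroup -/
theorem le_core {G : Type*} [Group G] [Finite G] {p : ℕ} [Fact p.Prime] (P : Sylow p G) {N : Subgroup G} (hN : N.Normal)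
    (hNp : IsPGroup p N) : N ≤ (P : Subgroup G).normalCore := by
  rw [Subgroup.normal_le_normalCore]
  obtain ⟨P', hP'⟩ := hNp.exists_le_sylow
  obtain ⟨g, rfl⟩ := MulAction.exists_smul_eq G P' P
  intro x hx
  have h1 : g⁻¹ * x * g ∈ P' := hP' (by simpa using hN.conj_mem x hx g⁻¹)
  rw [Sylow.coe_subgroup_smul]
  refine ⟨g⁻¹ * x * g, h1, ?_⟩
  change g * (g⁻¹ * x * g) * g⁻¹ = x
  group

/-- the largest normal `p`-subgroup is characteristic -/
theorem core_char {G : Type*} [Group G] [Finite G] {p : ℕ} [Fact p.Prime] (P : Sylow p G) (φ : G ≃* G) {x : G}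
    (hx : x ∈ (P : Subgroup G).normalCore) : φ x ∈ (P : Subgroup G).normalCore := by
  have h1 : ((P : Subgroup G).normalCore.map φ.toMonoidHom).Normal :=
    (inferInstance : (P : Subgroup G).normalCore.Normal).map _ φ.surjective
  have h2 : IsPGroup p ((P : Subgroup G).normalCore.map φ.toMonoidHom) :=
    (P.isPGroup'.to_le (Subgroup.normalCore_le _)).map _
  exact le_core P h1 h2 ⟨x, hx, rfl⟩

/-- **T1** for a normal `p`-subgroup of `A` -/
theorem mem_of_comm (h : EPT A Γ) {p : ℕ} (hp : p.Prime) {K : Subgroup Q} (hKA : K ≤ A)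
    (hKn : ∀ a ∈ A, ∀ k ∈ K, a * k * a⁻¹ ∈ K) (hKp : IsPGroup p K) {k : Q} (hk : k ∈ K) (hk1 : k ≠ 1) {x : Q}
    (hx : x * k = k * x) : x ∈ A := by
  have := Fact.mk hp
  obtain ⟨P⟩ : Nonempty (Sylow p A) := inferInstance
  set C := (P : Subgroup A).normalCore with hC
  have hKC : K.subgroupOf A ≤ C := by
    apply le_core P
    · refine ⟨fun n hn g => ?_⟩
      rw [mem_subgroupOf] at hn ⊢
      exact hKn g g.2 n hn
    · exact hKp.of_injective (Subgroup.subgroupOfEquivOfLe hKA).toMonoidHom (Subgroup.subgroupOfEquivOfLe hKA).injective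
  have hkC : (⟨k, hKA hk⟩ : A) ∈ C := hKC (mem_subgroupOf.2 hk)
  have hCp : IsPGroup p C := P.isPGroup'.to_le (Subgroup.normalCore_le _)
  have hle : C.map A.subtype ≤ A := by
    rintro _ ⟨a, -, rfl⟩
    exact a.2
  have hkm : k ∈ C.map A.subtype := ⟨⟨k, hKA hk⟩, hkC, rfl⟩
  have hnil : Group.IsNilpotent (C.map A.subtype) := (hCp.map A.subtype).isNilpotent
  have hinv : ∀ σ ∈ Γ, ∀ k ∈ C.map A.subtype, σ k ∈ C.map A.subtype := by
    rintro σ hσ _ ⟨a, ha, rfl⟩
    let φ : A ≃* A :=
      { toFun := fun a => ⟨σ a, (h.inv σ hσ a).2 a.2⟩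
        invFun := fun a => ⟨σ.symm a, by
          rw [← h.inv σ hσ, MulEquiv.apply_symm_apply]
          exact a.2⟩
        left_inv := fun a => Subtype.ext (σ.symm_apply_apply _)
        right_inv := fun a => Subtype.ext (σ.apply_symm_apply _)
        map_mul' := fun a b => Subtype.ext (map_mul σ _ _) }
    exact ⟨φ a, core_char P φ ha, rfl⟩
  obtain ⟨-, -, -, h4, -⟩ := h.nilp _ hle hinv hnil (fun e => hk1 (by
    rw [e, mem_bot] at hkm
    exact hkm))
  by_contra hxA
  have h5 := (h4 x hxA).1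
  have h6 : k ∈ C.map A.subtype ⊓ cj x A := by
    refine ⟨hkm, mem_cj.2 ?_⟩
    rw [mul_assoc, ← hx, inv_mul_cancel_left]
    exact hKA hk
  rw [h5, mem_bot] at h6
  exact hk1 h6

variable {ι : Type} [Fintype ι] [DecidableEq ι] {F : Type*} [Field F] {S : Subgroup (GL ι F)} (m : Model Q S)

/-- the same in the matrix group -/
theorem mem_hat_of_comm (h : EPT A Γ) {p : ℕ} (hp : p.Prime) {R : Subgroup (GL ι F)} (hRA : R ≤ m.hat A)
    (hRn : ∀ g ∈ m.hat A, ∀ x ∈ R, g * x * g⁻¹ ∈ R) (hRp : IsPGroup p R) {v : GL ι F} (hv : v ∈ R)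
    (hvs : v ∉ scalars ι F) {x : GL ι F} (hxS : x ∈ S) (hx : x * v = v * x) : x ∈ m.hat A := by
  have hRS := hRA.trans (m.hat_le A)
  have h1 := mem_of_comm h hp (K := (R.subgroupOf S).map m.π) ?_ ?_ ?_ (k := m.π ⟨v, hRS hv⟩) ⟨⟨v, hRS hv⟩, hv, rfl⟩ ?_
    (x := m.π ⟨x, hxS⟩) ?_
  · exact (m.mem_hat_iff ⟨x, hxS⟩).2 h1
  · rintro _ ⟨r, hr, rfl⟩
    exact (m.mem_hat_iff r).1 (hRA hr)
  · rintro a ha _ ⟨r, hr, rfl⟩
    obtain ⟨s, rfl⟩ := m.surj a
    refine ⟨s * r * s⁻¹, ?_, by rw [map_mul, map_mul, map_inv]⟩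
    exact hRn s ((m.mem_hat_iff s).2 ha) r hr
  · exact (hRp.of_injective (Subgroup.subgroupOfEquivOfLe hRS).toMonoidHom (Subgroup.subgroupOfEquivOfLe hRS).injective).map _
  · intro e
    exact hvs ((m.ker _).1 e)
  · rw [← map_mul, ← map_mul]
    congr 1
    exact Subtype.ext hx

end T1

section Fix

open Module

variable {ι : Type} [Fintype ι] [DecidableEq ι] {F : Type*} [Field F] {R : Subgroup (GL ι F)}

theorem neg_one_comm (g : GL ι F) : g * (-1) = (-1) * g := by rw [mul_neg, neg_mul, mul_one, one_mul]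

theorem neg_one_sq : (-1 : GL ι F) * (-1) = 1 := by rw [neg_mul_neg, one_mul]

/-- commutators and squares in `{1, -1}` -/
structure PM (R : Subgroup (GL ι F)) : Prop where
  comm : ∀ x ∈ R, ∀ y ∈ R, x * y = y * x ∨ x * y = -1 * (y * x)
  sq : ∀ x ∈ R, x * x = 1 ∨ x * x = -1

/-- a group of order more than eight contains an involution different from `-1` -/
theorem exists_invol [Finite R] (h : PM R) (hcard : 8 < Nat.card R) : ∃ v ∈ R, v * v = 1 ∧ v ≠ 1 ∧ v ≠ -1 := by
  classical
  by_contra hcon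
  push Not at hcon
  have hN : ∀ v ∈ R, v * v = 1 → v = 1 ∨ v = -1 := by
    intro v hv h1
    by_cases h2 : v = 1
    · exact Or.inl h2
    · exact Or.inr (hcon v hv h1 h2)
  have hsub : ∀ C : Finset (GL ι F), (∀ x ∈ R, x ∈ C) → Nat.card R ≤ C.card := by
    intro C hC
    have h1 : (R : Set (GL ι F)) ⊆ (C : Set (GL ι F)) := fun x hx => hC x hx
    have h2 := Set.ncard_le_ncard h1 (Finset.finite_toSet C)
    rwa [Set.ncard_coe_finset] at h2
  -- an element outside `{1, -1}`
  obtain ⟨a, ha, ha1, ha2⟩ : ∃ a ∈ R, a ≠ 1 ∧ a ≠ -1 := by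
    by_contra hc
    push Not at hc
    have h1 := hsub {1, -1} (fun x hx => by
      by_cases h1 : x = 1
      · simp [h1]
      · simp [hc x hx h1])
    have h2 : ({1, -1} : Finset (GL ι F)).card ≤ 2 := Finset.card_le_two
    omega
  have haa : a * a = -1 := by
    rcases h.sq a ha with h1 | h1
    · rcases hN a ha h1 with h2 | h2
      · exact absurd h2 ha1
      · exact absurd h2 ha2
    · exact h1
  have ha' : a⁻¹ = -1 * a := by
    rw [inv_eq_iff_mul_eq_one, ← mul_assoc, neg_one_comm, mul_assoc, haa, neg_one_sq]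
  -- elements commuting with `a`
  have hC : ∀ b ∈ R, a * b = b * a → b = 1 ∨ b = -1 ∨ b = a ∨ b = -1 * a := by
    intro b hb hab
    rcases h.sq b hb with h1 | h1
    · rcases hN b hb h1 with h2 | h2
      · exact Or.inl h2
      · exact Or.inr (Or.inl h2)
    · have h2 : (a * b) * (a * b) = 1 := by
        have : (a * b) * (a * b) = (a * a) * (b * b) := by
          rw [mul_assoc, ← mul_assoc b a b, ← hab, mul_assoc a b b, ← mul_assoc a a]
        rw [this, haa, h1, neg_one_sq]
      rcases hN _ (R.mul_mem ha hb) h2 with h3 | h3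
      · right; right; right
        rw [← ha']
        exact (inv_eq_of_mul_eq_one_right h3).symm
      · right; right; left
        have h4 : b = a⁻¹ * (-1) := by rw [← h3, inv_mul_cancel_left]
        rw [h4, ha', mul_assoc, neg_one_comm, ← mul_assoc, neg_one_sq, one_mul]
  let C : Finset (GL ι F) := {1, -1, a, -1 * a}
  have hCc : C.card ≤ 4 := Finset.card_le_four
  have hCm : ∀ b ∈ R, a * b = b * a → b ∈ C := by
    intro b hb hab
    simp only [C, Finset.mem_insert, Finset.mem_singleton]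
    exact hC b hb hab
  by_cases hall : ∀ b ∈ R, a * b = b * a
  · have h1 := hsub C fun x hx => hCm x hx (hall x hx)
    omega
  · push Not at hall
    obtain ⟨b, hb, hab⟩ := hall
    have hab' : a * b = -1 * (b * a) := (h.comm a ha b hb).resolve_left hab
    have h1 := hsub (C ∪ C.image (fun x => b * x)) (fun c hc => by
      rw [Finset.mem_union, Finset.mem_image]
      rcases h.comm a ha c hc with h2 | h2
      · exact Or.inl (hCm c hc h2)
      · right
        refine ⟨b⁻¹ * c, hCm _ (R.mul_mem (R.inv_mem hb) hc) ?_, mul_inv_cancel_left b c⟩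
        have h3 : a * b⁻¹ = -1 * (b⁻¹ * a) := by
          have h4 : b⁻¹ * (a * b) * b⁻¹ = b⁻¹ * (-1 * (b * a)) * b⁻¹ := by rw [hab']
          rw [← mul_assoc b⁻¹ (-1) (b * a), neg_one_comm b⁻¹, mul_assoc (-1) b⁻¹ (b * a), inv_mul_cancel_left] at h4
          have h5 : b⁻¹ * (a * b) * b⁻¹ = b⁻¹ * a := by group
          rw [h5] at h4
          rw [h4, ← mul_assoc, ← mul_assoc, neg_one_sq, one_mul]
        rw [← mul_assoc, h3, mul_assoc, mul_assoc, h2, ← mul_assoc b⁻¹ (-1), neg_one_comm b⁻¹, mul_assoc, ← mul_assoc (-1) (-1),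
          neg_one_sq, one_mul, mul_assoc])
    have h2 : (C ∪ C.image (fun x => b * x)).card ≤ 8 := by
      have h3 := Finset.card_union_le C (C.image (fun x => b * x))
      have h4 := Finset.card_image_le (s := C) (f := fun x => b * x)
      omega
    omega

/-- an element of odd order which normalises `R` and fixes a large subspace pointwise is scalar -/
theorem scalar_of_fix (h2 : (2 : F) ≠ 0) (habs : ActsAbsolutelyIrreducibly (matrixSet R)) (h : PM R)
    {t : GL ι F} (htn : ∀ x ∈ R, t * x * t⁻¹ ∈ R) {o : ℕ} (ho : Odd o) (hto : t ^ o = 1)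
    (W : Submodule F (ι → F)) (hW : ∀ w ∈ W, (t : Matrix ι ι F) *ᵥ w = w) (hdim : Fintype.card ι < 2 * finrank F W) :
    t ∈ scalars ι F := by
  -- a common fixed vector of `t` and `r t r⁻¹`
  have hfix : ∀ r ∈ R, t * r * t⁻¹ * r⁻¹ * (t * r * t⁻¹ * r⁻¹) = 1 := by
    intro r hr
    have hg : t * r * t⁻¹ * r⁻¹ ∈ R := R.mul_mem (htn r hr) (R.inv_mem hr)
    rcases h.sq _ hg with h1 | h1
    · exact h1
    exfalso
    set W' := W.map (Matrix.toLin' (r : Matrix ι ι F)) with hW'
    have hinj : Function.Injective (Matrix.toLin' (r : Matrix ι ι F)) := by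
      intro x y hxy
      rw [Matrix.toLin'_apply, Matrix.toLin'_apply] at hxy
      have h3 := congrArg (fun z => ((r⁻¹ : GL ι F) : Matrix ι ι F) *ᵥ z) hxy
      simpa only [Matrix.mulVec_mulVec, ← Units.val_mul, inv_mul_cancel, Units.val_one, Matrix.one_mulVec] using h3
    have hd : finrank F W' = finrank F W := (Submodule.equivMapOfInjective _ hinj W).finrank_eq.symm
    have hne : W ⊓ W' ≠ ⊥ := by
      intro e
      have h3 := Submodule.finrank_sup_add_finrank_inf_eq W W'
      rw [e, finrank_bot, hd] at h3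
      have h4 := Submodule.finrank_le (W ⊔ W')
      rw [Module.finrank_fintype_fun_eq_card] at h4
      omega
    obtain ⟨w, hw, hw0⟩ := (Submodule.ne_bot_iff _).1 hne
    obtain ⟨hw1, ⟨w', hw', hw2⟩⟩ := hw
    rw [Matrix.toLin'_apply] at hw2
    have ht' : ∀ w ∈ W, ((t⁻¹ : GL ι F) : Matrix ι ι F) *ᵥ w = w := by
      intro w hw
      conv_lhs => rw [← hW w hw]
      rw [Matrix.mulVec_mulVec, ← Units.val_mul, inv_mul_cancel, Units.val_one, Matrix.one_mulVec]
    have h5 : ((t * r * t⁻¹ * r⁻¹ : GL ι F) : Matrix ι ι F) *ᵥ w = w := by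
      have h6 : ((r⁻¹ : GL ι F) : Matrix ι ι F) *ᵥ w = w' := by
        rw [← hw2, Matrix.mulVec_mulVec, ← Units.val_mul, inv_mul_cancel, Units.val_one, Matrix.one_mulVec]
      rw [Units.val_mul, ← Matrix.mulVec_mulVec, h6, Units.val_mul, ← Matrix.mulVec_mulVec, ht' w' hw', Units.val_mul,
        ← Matrix.mulVec_mulVec, hw2, hW w hw1]
    have h7 : ((-1 : GL ι F) : Matrix ι ι F) *ᵥ w = w := by
      rw [← h1, Units.val_mul, ← Matrix.mulVec_mulVec, h5, h5]
    rw [Units.val_neg, Units.val_one, Matrix.neg_mulVec, Matrix.one_mulVec] at h7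
    apply hw0
    have h8 : (2 : F) • w = 0 := by
      rw [two_smul]
      nth_rewrite 1 [← h7]
      exact neg_add_cancel w
    exact (smul_eq_zero.1 h8).resolve_left h2
  have hne : Nonempty ι := by
    rw [← Fintype.card_pos_iff]
    have h3 := Submodule.finrank_le W
    rw [Module.finrank_fintype_fun_eq_card] at h3
    omega
  -- conjugation by an element of `R`
  have hconj : ∀ x ∈ R, ∀ y ∈ R, ∃ e : GL ι F, (e = 1 ∨ e = -1) ∧ x * y * x⁻¹ = e * y := by
    intro x hx y hy
    rcases h.comm x hx y hy with h1 | h1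
    · exact ⟨1, Or.inl rfl, by rw [h1, one_mul, mul_inv_cancel_right]⟩
    · exact ⟨-1, Or.inr rfl, by rw [h1, mul_assoc (-1) (y * x), mul_inv_cancel_right]⟩
  have hec : ∀ e : GL ι F, (e = 1 ∨ e = -1) → ∀ g : GL ι F, g * e = e * g := by
    rintro e (rfl | rfl) g
    · rw [mul_one, one_mul]
    · exact neg_one_comm g
  have hes : ∀ e : GL ι F, (e = 1 ∨ e = -1) → e * e = 1 := by
    rintro e (rfl | rfl)
    · exact one_mul 1
    · exact neg_one_sq
  have hG : ∀ r ∈ R, t * r * t⁻¹ * r⁻¹ ∈ R := fun r hr => R.mul_mem (htn r hr) (R.inv_mem hr)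
  have hcomm : ∀ r ∈ R, ∀ s ∈ R, (t * r * t⁻¹ * r⁻¹) * (t * s * t⁻¹ * s⁻¹) = (t * s * t⁻¹ * s⁻¹) * (t * r * t⁻¹ * r⁻¹) := by
    intro r hr s hs
    obtain ⟨e, he, h1⟩ := hconj r hr _ (hG s hs)
    have h3 := hfix (r * s) (R.mul_mem hr hs)
    have h4 : t * (r * s) * t⁻¹ * (r * s)⁻¹ = (t * r * t⁻¹ * r⁻¹) * (r * (t * s * t⁻¹ * s⁻¹) * r⁻¹) := by group
    have ha := hfix r hr
    have hb := hfix s hs
    rw [h4, h1] at h3
    generalize t * r * t⁻¹ * r⁻¹ = a at *
    generalize t * s * t⁻¹ * s⁻¹ = b at *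
    have h5 : (a * b) * (a * b) = 1 := by
      have h6 : a * (e * b) * (a * (e * b)) = e * e * ((a * b) * (a * b)) := by
        rw [← mul_assoc a e b, hec e he a, mul_assoc e a b, mul_assoc e (a * b), ← mul_assoc (a * b) e, hec e he (a * b),
          mul_assoc e (a * b), ← mul_assoc e e]
      rw [h6, hes e he, one_mul] at h3
      exact h3
    have h7 : (a * b)⁻¹ = a * b := inv_eq_of_mul_eq_one_left h5
    rw [← h7, mul_inv_rev, inv_eq_of_mul_eq_one_left ha, inv_eq_of_mul_eq_one_left hb]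
  -- `t²` centralises `R` modulo `{1, -1}`
  have ht2 : ∀ s ∈ R, ∃ e : GL ι F, (e = 1 ∨ e = -1) ∧ (t * t) * s * (t * t)⁻¹ = e * s := by
    intro s hs
    set g := t * s * t⁻¹ * s⁻¹ with hg
    have hgR : g ∈ R := hG s hs
    set g' := t * g * t⁻¹ with hg'
    have hg'R : g' ∈ R := htn g hgR
    have hgg : t * t * s * (t * t)⁻¹ = g' * g * s := by
      rw [hg', hg]; group
    have hg'e : g' = t * (t * s * t⁻¹) * t⁻¹ * (t * s * t⁻¹)⁻¹ := by
      rw [hg', hg]; group
    have hcomm' : ∀ r ∈ R, r * (g' * g) = (g' * g) * r := by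
      intro r hr
      obtain ⟨e, he, h1⟩ := hconj r hr g hgR
      obtain ⟨d, hd, h3⟩ := hconj r hr g' hg'R
      have h4 : (t * r * t⁻¹) * g' * (t * r * t⁻¹)⁻¹ = e * g' := by
        have h5 : (t * r * t⁻¹) * g' * (t * r * t⁻¹)⁻¹ = t * (r * g * r⁻¹) * t⁻¹ := by rw [hg']; group
        rw [h5, h1, ← mul_assoc t e g, hec e he t, hg']
        group
      have h6 : (t * r * t⁻¹) * g' * (t * r * t⁻¹)⁻¹ = d * g' := by
        have h7 : (t * r * t⁻¹) * g' * (t * r * t⁻¹)⁻¹ =
            (t * r * t⁻¹ * r⁻¹) * (r * g' * r⁻¹) * (t * r * t⁻¹ * r⁻¹)⁻¹ := by group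
        have h8 := hcomm r hr _ (htn s hs)
        rw [← hg'e] at h8
        rw [h7, h3, ← mul_assoc _ d g', hec d hd, mul_assoc d, h8, mul_assoc d, mul_inv_cancel_right]
      have h9 : d = e := mul_right_cancel (h6.symm.trans h4)
      have h10 : r * (g' * g) * r⁻¹ = g' * g := by
        have h11 : r * (g' * g) * r⁻¹ = (r * g' * r⁻¹) * (r * g * r⁻¹) := by group
        rw [h11, h3, h1, h9, ← mul_assoc (e * g') e g, hec e he (e * g'), ← mul_assoc e e g', hes e he, one_mul]
      rwa [mul_inv_eq_iff_eq_mul] at h10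
    obtain ⟨c, hc⟩ := habs.2 ((g' * g : GL ι F) : Matrix ι ι F) (by
      rintro _ ⟨r, hr, rfl⟩
      change ((g' * g : GL ι F) : Matrix ι ι F) * ((r : GL ι F) : Matrix ι ι F) =
        ((r : GL ι F) : Matrix ι ι F) * ((g' * g : GL ι F) : Matrix ι ι F)
      rw [← Units.val_mul, ← Units.val_mul, hcomm' r hr])
    have hsq : (g' * g) * (g' * g) = 1 := by
      have h1 : g' * g' = 1 := by rw [hg'e]; exact hfix _ (htn s hs)
      have h3 : g * g = 1 := hfix s hs
      have h4 : g' * g = g * g' := by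
        have h8 := hcomm _ (htn s hs) s hs
        rw [← hg'e] at h8
        exact h8
      rw [mul_assoc, ← mul_assoc g g' g, ← h4, mul_assoc g' g g, h3, mul_one, h1]
    have hcc : c * c = 1 := by
      have h1 := congrArg (fun x : GL ι F => (x : Matrix ι ι F)) hsq
      simp only [Units.val_one] at h1
      rw [Units.val_mul, hc, Matrix.smul_mul, Matrix.one_mul, smul_smul] at h1
      have h3 := congrFun (congrFun h1 hne.some) hne.some
      rwa [Matrix.smul_apply, Matrix.one_apply_eq, smul_eq_mul, mul_one] at h3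
    refine ⟨g' * g, ?_, hgg⟩
    rcases mul_self_eq_one_iff.1 hcc with h1 | h1
    · left
      apply Units.ext
      rw [hc, h1, one_smul, Units.val_one]
    · right
      apply Units.ext
      rw [hc, h1, Units.val_neg, Units.val_one, neg_smul, one_smul]
  -- `t²` centralises `R`
  have ht2' : ∀ s ∈ R, (t * t) * s = s * (t * t) := by
    intro s hs
    obtain ⟨e, he, h1⟩ := ht2 s hs
    have h3 : ∀ n : ℕ, (t * t) ^ n * s * ((t * t) ^ n)⁻¹ = e ^ n * s := by
      intro n
      induction n with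
      | zero => rw [pow_zero, pow_zero, one_mul, inv_one, mul_one]
      | succ n ih =>
        have h4 : (t * t) ^ (n + 1) * s * ((t * t) ^ (n + 1))⁻¹ = (t * t) * ((t * t) ^ n * s * ((t * t) ^ n)⁻¹) * (t * t)⁻¹ := by
          rw [pow_succ' (t * t) n, mul_inv_rev]
          simp only [mul_assoc]
        have hen : e ^ n = 1 ∨ e ^ n = -1 := by
          rcases he with rfl | rfl
          · exact Or.inl (one_pow n)
          · exact neg_one_pow_eq_or _ n
        rw [h4, ih, ← mul_assoc (t * t) (e ^ n) s, hec _ hen (t * t), mul_assoc (e ^ n), mul_assoc (e ^ n), h1, ← mul_assoc,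
          pow_succ]
    have h4 := h3 o
    have h5 : (t * t) ^ o = 1 := by
      rw [← pow_two, ← pow_mul, mul_comm, pow_mul, hto, one_pow]
    rw [h5, inv_one, mul_one, one_mul] at h4
    have h6 : e = 1 := by
      rcases he with he | he
      · exact he
      · exfalso
        rw [he, ho.neg_one_pow] at h4
        have h7 : (1 : GL ι F) = -1 := mul_right_cancel (b := s) (by rw [one_mul]; exact h4)
        have h8 := congrArg (fun x : GL ι F => (x : Matrix ι ι F) hne.some hne.some) h7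
        simp only [Units.val_neg, Units.val_one, Matrix.neg_apply, Matrix.one_apply_eq] at h8
        apply h2
        have : (2 : F) = 1 + 1 := by norm_num
        rw [this]
        nth_rewrite 1 [h8]
        exact neg_add_cancel 1
    rw [h6, one_mul, mul_inv_eq_iff_eq_mul] at h1
    exact h1
  -- `t` centralises `R`
  have ht1 : ∀ s ∈ R, t * s = s * t := by
    intro s hs
    obtain ⟨j, hj⟩ := ho
    have h3 : t = (t * t) ^ (j + 1) := by
      rw [← pow_two, ← pow_mul, show 2 * (j + 1) = o + 1 by omega, pow_succ, hto, one_mul]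
    have h4 : Commute (t * t) s := ht2' s hs
    rw [h3]
    exact (h4.pow_left (j + 1)).eq
  obtain ⟨c, hc⟩ := habs.2 (t : Matrix ι ι F) (by
    rintro _ ⟨r, hr, rfl⟩
    change (t : Matrix ι ι F) * ((r : GL ι F) : Matrix ι ι F) = ((r : GL ι F) : Matrix ι ι F) * (t : Matrix ι ι F)
    rw [← Units.val_mul, ← Units.val_mul, ht1 r hr])
  rw [mem_scalars_iff]
  have hc0 : c ≠ 0 := by
    rintro rfl
    have h3 : (t : Matrix ι ι F) * ((t⁻¹ : GL ι F) : Matrix ι ι F) = 1 := by rw [← Units.val_mul, mul_inv_cancel, Units.val_one]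
    rw [hc, zero_smul, zero_mul] at h3
    have h4 := congrFun (congrFun h3 hne.some) hne.some
    rw [Matrix.zero_apply, Matrix.one_apply_eq] at h4
    exact zero_ne_one h4
  exact ⟨Units.mk0 c hc0, hc⟩

end Fix

end Cfsg.Agent.H491.EP
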