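import Cfsg.Agent.H491.EP.C6
import Cfsg.Agent.H876.SpGen

/-!
# S3499, symplectic groups, class C6 (helper491)
-/

set_option autoImplicit false

namespace Cfsg.Agent.H491.EP

open Subgroup Module Cfsg Cfsg.Agent.H284 Cfsg.Agent.H419.EP Cfsg.Geo
open scoped MatrixGroups Matrix

section

variable {ι : Type} [Fintype ι] [DecidableEq ι] {F : Type*} [Field F] {R : Subgroup (GL ι F)}

/-- `R` of symplectic type with centre of order two: commutators and squares in `{1, -1}` -/
theorem pm_of [Finite R] [Nonempty ι] (hR : IsSymplecticTypeGroup 2 R) (habs : ActsAbsolutelyIrreducibly (matrixSet R))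
    (hZ : Nat.card (center R) = 2) : PM R := by
  have hc : ∀ z : R, z ∈ center R → (z : GL ι F) = 1 ∨ (z : GL ι F) = -1 := by
    intro z hz
    obtain ⟨c, hc⟩ := Cfsg.Agent.H921.center_scalar habs z hz
    have h1 : z * z = 1 := by
      have h2 : (⟨z, hz⟩ : center R) ^ Nat.card (center R) = 1 := pow_card_eq_one'
      rw [hZ, pow_two] at h2
      exact congrArg Subtype.val h2
    have h2 : ((z : GL ι F) : Matrix ι ι F) * ((z : GL ι F) : Matrix ι ι F) = 1 := by
      rw [← Units.val_mul, ← Subgroup.coe_mul, h1, Subgroup.coe_one, Units.val_one]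
    rw [hc, Matrix.smul_mul, Matrix.one_mul, smul_smul] at h2
    have i : ι := Classical.arbitrary ι
    have h3 := congrFun (congrFun h2 i) i
    rw [Matrix.smul_apply, Matrix.one_apply_eq, smul_eq_mul, mul_one] at h3
    rcases mul_self_eq_one_iff.1 h3 with h4 | h4
    · left
      apply Units.ext
      rw [hc, h4, one_smul, Units.val_one]
    · right
      apply Units.ext
      rw [hc, h4, Units.val_neg, Units.val_one, neg_smul, one_smul]
  have hcm : ∀ x y : R, x * y * x⁻¹ * y⁻¹ ∈ center R :=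
    Cfsg.Agent.H921.commutator_mem_center hR (fun h => absurd h (by decide))
  have hcomm : ∀ x ∈ R, ∀ y ∈ R, x * y = y * x ∨ x * y = -1 * (y * x) := by
    intro x hx y hy
    have h1 : x * y = x * y * x⁻¹ * y⁻¹ * (y * x) := by group
    rcases hc _ (hcm ⟨x, hx⟩ ⟨y, hy⟩) with h2 | h2
    · left
      have h3 : x * y * x⁻¹ * y⁻¹ = 1 := h2
      rw [h1, h3, one_mul]
    · right
      have h3 : x * y * x⁻¹ * y⁻¹ = -1 := h2
      rw [h1, h3]
  refine ⟨hcomm, fun x hx => ?_⟩
  apply hc (⟨x, hx⟩ * ⟨x, hx⟩)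
  rw [mem_center_iff]
  rintro ⟨y, hy⟩
  apply Subtype.ext
  change y * (x * x) = x * x * y
  rcases hcomm x hx y hy with h1 | h1
  · rw [mul_assoc x x y, h1, ← mul_assoc, ← mul_assoc, h1]
  · rw [mul_assoc x x y, h1, ← mul_assoc x (-1), neg_one_comm x, mul_assoc, ← mul_assoc x y x, h1, ← mul_assoc (-1) _ x,
      ← mul_assoc (-1) (-1), neg_one_sq, one_mul, mul_assoc]

/-- the elements of `R` which are involutions different from `-1` are not scalar -/
theorem not_scalar_of_invol [Nonempty ι] {v : GL ι F} (h1 : v * v = 1) (h2 : v ≠ 1) (h3 : v ≠ -1) : v ∉ scalars ι F := by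
  rw [mem_scalars_iff]
  rintro ⟨c, hc⟩
  have h4 : (v : Matrix ι ι F) * (v : Matrix ι ι F) = 1 := by rw [← Units.val_mul, h1, Units.val_one]
  rw [hc, Matrix.smul_mul, Matrix.one_mul, smul_smul] at h4
  have i : ι := Classical.arbitrary ι
  have h5 := congrFun (congrFun h4 i) i
  rw [Matrix.smul_apply, Matrix.one_apply_eq, smul_eq_mul, mul_one] at h5
  rcases mul_self_eq_one_iff.1 h5 with h6 | h6
  · apply h2
    apply Units.ext
    rw [hc, h6, one_smul, Units.val_one]
  · apply h3
    apply Units.ext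
    rw [hc, h6, Units.val_neg, Units.val_one, neg_smul, one_smul]

/-- an involution different from `-1` has a fixed vector -/
theorem exists_fixed {v : GL ι F} (h1 : v * v = 1) (h3 : v ≠ -1) : ∃ w : ι → F, w ≠ 0 ∧ (v : Matrix ι ι F) *ᵥ w = w := by
  by_contra hcon
  push Not at hcon
  apply h3
  apply Units.ext
  rw [Units.val_neg, Units.val_one]
  apply Matrix.toLin'.injective
  apply LinearMap.ext
  intro x
  rw [Matrix.toLin'_apply, Matrix.toLin'_apply, Matrix.neg_mulVec, Matrix.one_mulVec]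
  by_contra hx
  refine hcon (x + (v : Matrix ι ι F) *ᵥ x) (fun h => hx (eq_neg_of_add_eq_zero_right h)) ?_
  rw [Matrix.mulVec_add, Matrix.mulVec_mulVec, ← Units.val_mul, h1, Units.val_one, Matrix.one_mulVec, add_comm]

end

section

variable {F : Type*} [Field F] {k : ℕ}

open Cfsg.Agent.H876 Cfsg.Agent.ClassicalGeometry.SympBasic

theorem tGL_pow_mulVec (w u : Fin k ⊕ Fin k → F) (n : ℕ) :
    ((tGL w 1 ^ n : GL (Fin k ⊕ Fin k) F) : Matrix _ _ F) *ᵥ u = u + ((n : F) * sympForm k F u w) • w := by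
  induction n with
  | zero => rw [pow_zero, Units.val_one, Matrix.one_mulVec, Nat.cast_zero, zero_mul, zero_smul, add_zero]
  | succ n ih =>
    rw [pow_succ', Units.val_mul, ← Matrix.mulVec_mulVec, ih, tGL_mulVec, sympForm_add_left, sympForm_smul_left,
      sympForm_self, mul_zero, add_zero, one_mul, add_assoc, ← add_smul, Nat.cast_succ]
    ring_nf

/-- no transvection normalises `R` -/
theorem tGL_not_norm [Fintype F] {R : Subgroup (GL (Fin k ⊕ Fin k) F)} (hk : 2 ≤ k) {p : ℕ} (hpo : Odd p)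
    (hcard : Fintype.card F = p) (habs : ActsAbsolutelyIrreducibly (matrixSet R)) (h : PM R) {w : Fin k ⊕ Fin k → F}
    (hw : w ≠ 0) (hn : tGL w 1 ∈ subgroupNormalizer R) : False := by
  have hp0 : (p : F) = 0 := by rw [← hcard]; exact Nat.cast_card_eq_zero F
  have h2 : (2 : F) ≠ 0 := by
    intro h2
    obtain ⟨j, hj⟩ := hpo
    rw [hj] at hp0
    push_cast at hp0
    rw [h2, zero_mul, zero_add] at hp0
    exact one_ne_zero hp0
  have htp : (tGL w 1 : GL (Fin k ⊕ Fin k) F) ^ p = 1 := by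
    apply Units.ext
    apply Matrix.toLin'.injective
    apply LinearMap.ext
    intro u
    rw [Matrix.toLin'_apply, Matrix.toLin'_apply, tGL_pow_mulVec, hp0, zero_mul, zero_smul, add_zero, Units.val_one,
      Matrix.one_mulVec]
  let φ : (Fin k ⊕ Fin k → F) →ₗ[F] F :=
    { toFun := fun u => sympForm k F u w
      map_add' := fun u u' => sympForm_add_left u u' w
      map_smul' := fun c u => sympForm_smul_left c u w }
  have hfix : ∀ u ∈ LinearMap.ker φ, (tGL w 1 : Matrix _ _ F) *ᵥ u = u := by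
    intro u hu
    have h1 : sympForm k F u w = 0 := hu
    rw [tGL_mulVec, h1, mul_zero, zero_smul, add_zero]
  have hdim : Fintype.card (Fin k ⊕ Fin k) < 2 * finrank F (LinearMap.ker φ) := by
    have h1 := LinearMap.finrank_range_add_finrank_ker φ
    have h3 : finrank F (LinearMap.range φ) ≤ 1 := by
      have := Submodule.finrank_le (LinearMap.range φ)
      rwa [finrank_self] at this
    rw [Module.finrank_fintype_fun_eq_card] at h1
    have h4 : Fintype.card (Fin k ⊕ Fin k) = k + k := by rw [Fintype.card_sum, Fintype.card_fin]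
    omega
  have hs := scalar_of_fix h2 habs h (t := tGL w 1) (fun x hx => ((Subgroup.mem_normalizer_iff.1 hn) x).1 hx) hpo htp _ hfix hdim
  obtain ⟨c, hc⟩ := (mem_scalars_iff _).1 hs
  have hval : ∀ u, u + ((1 : F) * sympForm k F u w) • w = (c : F) • u := by
    intro u
    rw [← tGL_mulVec, hc, Matrix.smul_mulVec, Matrix.one_mulVec]
  have h1 := hval w
  rw [sympForm_self, mul_zero, zero_smul, add_zero] at h1
  have hc1 : (c : F) = 1 := by
    have h3 : ((1 : F) - c) • w = 0 := by rw [sub_smul, one_smul, ← h1, sub_self]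
    have h4 := (smul_eq_zero.1 h3).resolve_right hw
    exact (sub_eq_zero.1 h4).symm
  apply hw
  apply eq_zero_of_forall_sympForm_left
  intro u
  have h3 := hval u
  rw [hc1, one_smul, one_mul] at h3
  have h4 : sympForm k F u w • w = 0 := by
    have := add_left_cancel (h3.trans (add_zero u).symm)
    exact this
  exact (smul_eq_zero.1 h4).resolve_right hw

/-- `R ∩ Sp` has index at most two in `R` -/
theorem card_le_two {R : Subgroup (GL (Fin k ⊕ Fin k) F)} [Finite R] (hk : 1 ≤ k) (h : PM R)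
    (hsim : R ≤ similarityGroup (sympForm k F)) : Nat.card R ≤ 2 * Nat.card (R ⊓ spGL k F : Subgroup (GL (Fin k ⊕ Fin k) F)) := by
  classical
  have hmul : ∀ r ∈ R, (r ∈ spGL k F) ∨ ∀ u v, sympForm k F ((r : Matrix _ _ F) *ᵥ u) ((r : Matrix _ _ F) *ᵥ v) = - sympForm k F u v := by
    intro r hr
    obtain ⟨c', hc'⟩ := hsim hr
    obtain ⟨c, hc⟩ : ∃ c : F, ∀ u v, sympForm k F ((r : Matrix _ _ F) *ᵥ u) ((r : Matrix _ _ F) *ᵥ v) = c * sympForm k F u v :=
      ⟨c', hc'⟩
    have h1 : ∀ u v, c * (c * sympForm k F u v) = sympForm k F u v := by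
      intro u v
      rw [← hc, ← hc, Matrix.mulVec_mulVec, Matrix.mulVec_mulVec, ← Units.val_mul]
      rcases h.sq r hr with h2 | h2
      · rw [h2, Units.val_one, Matrix.one_mulVec, Matrix.one_mulVec]
      · rw [h2, Units.val_neg, Units.val_one, Matrix.neg_mulVec, Matrix.neg_mulVec, Matrix.one_mulVec, Matrix.one_mulVec,
          sympForm_neg_left, sympForm_neg_right, neg_neg]
    have h3 : c * c = 1 := by
      have h4 := h1 (Pi.single (Sum.inr ⟨0, hk⟩) 1) (Pi.single (Sum.inl ⟨0, hk⟩) 1)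
      rw [sympForm_single_inr_left, Pi.single_eq_same, mul_one] at h4
      exact h4
    rcases mul_self_eq_one_iff.1 h3 with h4 | h4
    · left
      intro u v
      have := hc u v
      rw [h4, one_mul] at this
      exact this
    · right
      intro u v
      rw [hc u v, h4, neg_one_mul]
  by_cases hle : R ≤ spGL k F
  · rw [inf_eq_left.2 hle]
    have : 0 < Nat.card R := Nat.card_pos
    omega
  · obtain ⟨b, hb, hbS⟩ := SetLike.not_le_iff_exists.1 hle
    have hb' := (hmul b hb).resolve_left hbS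
    set R0 := R ⊓ spGL k F with hR0
    have hfin : (R0 : Set (GL (Fin k ⊕ Fin k) F)).Finite :=
      (Set.toFinite (R : Set (GL (Fin k ⊕ Fin k) F))).subset (fun x hx => hx.1)
    have hsub : (R : Set (GL (Fin k ⊕ Fin k) F)) ⊆ (R0 : Set (GL (Fin k ⊕ Fin k) F)) ∪ (fun x => b * x) '' (R0 : Set _) := by
      intro x hx
      rcases hmul x hx with h1 | h1
      · exact Or.inl ⟨hx, h1⟩
      · right
        refine ⟨b⁻¹ * x, ⟨R.mul_mem (R.inv_mem hb) hx, ?_⟩, mul_inv_cancel_left b x⟩
        intro u v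
        have h3 := hb' (((b⁻¹ * x : GL _ F) : Matrix _ _ F) *ᵥ u) (((b⁻¹ * x : GL _ F) : Matrix _ _ F) *ᵥ v)
        rw [Matrix.mulVec_mulVec, Matrix.mulVec_mulVec, ← Units.val_mul, mul_inv_cancel_left, h1] at h3
        exact (neg_injective h3).symm
    have h1 := Set.ncard_le_ncard hsub (hfin.union (hfin.image _))
    have h3 := Set.ncard_union_le (R0 : Set (GL (Fin k ⊕ Fin k) F)) ((fun x => b * x) '' (R0 : Set _))
    have h4 := Set.ncard_image_le hfin (f := fun x => b * x)
    have e1 : Nat.card R = (R : Set (GL (Fin k ⊕ Fin k) F)).ncard := rfl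
    have e2 : Nat.card R0 = (R0 : Set (GL (Fin k ⊕ Fin k) F)).ncard := rfl
    omega

/-- **S3499-III-Sp-C6** -/
theorem sp_c6 {Q : Type*} [Group Q] [Finite Q] {A : Subgroup Q} {Γ : Subgroup (MulAut Q)} (h : EPT A Γ)
    {F : Type*} [Field F] [Fintype F] {k : ℕ} (hk : 2 ≤ k) (m : Model Q (spGL k F)) {R : Subgroup (GL (Fin k ⊕ Fin k) F)}
    {p j : ℕ} (hR : IsSymplecticTypeGroup 2 R) (habs : ActsAbsolutelyIrreducibly (matrixSet R))
    (hsim : R ≤ similarityGroup (sympForm k F)) (hpo : Odd p) (hcard : Fintype.card F = p)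
    (hRc : Nat.card R = 2 ^ (1 + 2 * j)) (hZ : Nat.card (center R) = 2) (hA : m.hat A ≤ subgroupNormalizer R ⊓ spGL k F) :
    False := by
  have hne : Nonempty (Fin k ⊕ Fin k) := ⟨Sum.inl ⟨0, by omega⟩⟩
  have hfin : Finite (GL (Fin k ⊕ Fin k) F) := inferInstance
  have hPM := pm_of hR habs hZ
  have hj : 2 ≤ j := by
    have h1 := Cfsg.Agent.H921.card_eq_pow_of_center_prime hR habs hZ hRc
    rw [Fintype.card_sum, Fintype.card_fin] at h1
    by_contra h2
    have h3 : 2 ^ j ≤ 2 ^ 1 := Nat.pow_le_pow_right (by norm_num) (by omega)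
    omega
  have hcard8 : 8 < Nat.card (R ⊓ spGL k F : Subgroup (GL (Fin k ⊕ Fin k) F)) := by
    have h1 := card_le_two (by omega) hPM hsim
    have h3 : 2 ^ 5 ≤ Nat.card R := by
      rw [hRc]
      exact Nat.pow_le_pow_right (by norm_num) (by omega)
    omega
  rcases (m.isMaximalIn h.max).2 _ hA inf_le_right with h1 | h1
  · have hRA : R ⊓ spGL k F ≤ m.hat A := by
      rw [← h1]
      exact inf_le_inf_right _ Subgroup.le_normalizer
    obtain ⟨v, hv, hv1, hv2, hv3⟩ := exists_invol (R := R ⊓ spGL k F)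
      ⟨fun x hx y hy => hPM.comm x hx.1 y hy.1, fun x hx => hPM.sq x hx.1⟩ hcard8
    obtain ⟨w, hw0, hw⟩ := exists_fixed hv1 hv3
    have ht : tGL w 1 ∈ m.hat A := by
      refine mem_hat_of_comm m h Nat.prime_two hRA ?_ (hR.pGroup.to_le inf_le_left) hv (not_scalar_of_invol hv1 hv2 hv3)
        (tGL_mem w 1) ?_
      · intro g hg x hx
        have hg' := hA hg
        exact ⟨((Subgroup.mem_normalizer_iff.1 hg'.1) x).1 hx.1,
          (spGL k F).mul_mem ((spGL k F).mul_mem hg'.2 hx.2) ((spGL k F).inv_mem hg'.2)⟩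
      · apply Units.ext
        apply Matrix.toLin'.injective
        apply LinearMap.ext
        intro u
        have hvS : ∀ a b, sympForm k F ((v : Matrix _ _ F) *ᵥ a) ((v : Matrix _ _ F) *ᵥ b) = sympForm k F a b := hv.2
        have h3 : sympForm k F ((v : Matrix _ _ F) *ᵥ u) w = sympForm k F u w := by
          rw [← hvS u w, hw]
        rw [Matrix.toLin'_apply, Matrix.toLin'_apply, Units.val_mul, Units.val_mul, ← Matrix.mulVec_mulVec,
          ← Matrix.mulVec_mulVec, tGL_mulVec, tGL_mulVec, h3, Matrix.mulVec_add, Matrix.mulVec_smul, hw]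
    exact tGL_not_norm hk hpo hcard habs hPM hw0 (hA ht).1
  · obtain ⟨w, hw0⟩ : ∃ w : Fin k ⊕ Fin k → F, w ≠ 0 := exists_ne 0
    have ht : (tGL w 1 : GL (Fin k ⊕ Fin k) F) ∈ subgroupNormalizer R ⊓ spGL k F := by
      rw [h1]
      exact tGL_mem w 1
    exact tGL_not_norm hk hpo hcard habs hPM hw0 ht.1

end

end Cfsg.Agent.H491.EP
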