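import Cfsg.Agent.H491.EP.C6
import Cfsg.Agent.H491.EP.SpC6
import Cfsg.Agent.H925.OrthBasic
import Cfsg.Agent.H181.StdBasis

/-!
# S3499, orthogonal groups, class C6 (helper491)
-/

set_option autoImplicit false

namespace Cfsg.Agent.H491.EP

open Subgroup Module Cfsg Cfsg.Agent.H284 Cfsg.Agent.H419.EP Cfsg.Geo QuadraticMap
open scoped MatrixGroups Matrix

variable {ι : Type} [Fintype ι] [DecidableEq ι] {F : Type*} [Field F]

/-- for an involution `v`, with `r v = -v r`, the fixed space has dimension at least `n / 2` -/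
theorem finrank_fixed (h2 : (2 : F) ≠ 0) {v r : GL ι F} (h1 : v * v = 1) (hr : r * v = -1 * (v * r)) :
    ∃ W : Submodule F (ι → F), (∀ w ∈ W, (v : Matrix ι ι F) *ᵥ w = w) ∧ Fintype.card ι ≤ 2 * finrank F W := by
  let W : Submodule F (ι → F) :=
    { carrier := {w | (v : Matrix ι ι F) *ᵥ w = w}
      add_mem' := fun {a b} ha hb => by
        rw [Set.mem_ofPred_eq] at ha hb ⊢
        rw [Matrix.mulVec_add, ha, hb]
      zero_mem' := Matrix.mulVec_zero _
      smul_mem' := fun c a ha => by
        rw [Set.mem_ofPred_eq] at ha ⊢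
        rw [Matrix.mulVec_smul, ha] }
  let W' : Submodule F (ι → F) :=
    { carrier := {w | (v : Matrix ι ι F) *ᵥ w = -w}
      add_mem' := fun {a b} ha hb => by
        rw [Set.mem_ofPred_eq] at ha hb ⊢
        rw [Matrix.mulVec_add, ha, hb, neg_add]
      zero_mem' := by rw [Set.mem_ofPred_eq, Matrix.mulVec_zero, neg_zero]
      smul_mem' := fun c a ha => by
        rw [Set.mem_ofPred_eq] at ha ⊢
        rw [Matrix.mulVec_smul, ha, smul_neg] }
  have hW : ∀ w, w ∈ W ↔ (v : Matrix ι ι F) *ᵥ w = w := fun w => Iff.rfl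
  have hW' : ∀ w, w ∈ W' ↔ (v : Matrix ι ι F) *ᵥ w = -w := fun w => Iff.rfl
  have hvv : ∀ x, (v : Matrix ι ι F) *ᵥ ((v : Matrix ι ι F) *ᵥ x) = x := by
    intro x
    rw [Matrix.mulVec_mulVec, ← Units.val_mul, h1, Units.val_one, Matrix.one_mulVec]
  have htop : W ⊔ W' = ⊤ := by
    rw [Submodule.eq_top_iff']
    intro x
    have h3 : x = (2 : F)⁻¹ • (x + (v : Matrix ι ι F) *ᵥ x) + (2 : F)⁻¹ • (x - (v : Matrix ι ι F) *ᵥ x) := by
      rw [← smul_add, add_add_sub_cancel, ← two_smul F x, inv_smul_smul₀ h2]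
    rw [h3]
    refine Submodule.add_mem_sup (W.smul_mem _ ?_) (W'.smul_mem _ ?_)
    · rw [hW, Matrix.mulVec_add, hvv, add_comm]
    · rw [hW', Matrix.mulVec_sub, hvv, neg_sub]
  have hd := Submodule.finrank_add_le_finrank_add_finrank W W'
  rw [htop, finrank_top, Module.finrank_fintype_fun_eq_card] at hd
  have hinj : Function.Injective (Matrix.toLin' (r : Matrix ι ι F)) := by
    intro x y hxy
    rw [Matrix.toLin'_apply, Matrix.toLin'_apply] at hxy
    have h3 := congrArg (fun z => ((r⁻¹ : GL ι F) : Matrix ι ι F) *ᵥ z) hxy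
    simpa only [Matrix.mulVec_mulVec, ← Units.val_mul, inv_mul_cancel, Units.val_one, Matrix.one_mulVec] using h3
  have hle : W'.map (Matrix.toLin' (r : Matrix ι ι F)) ≤ W := by
    rintro _ ⟨x, hx, rfl⟩
    have hx' : (v : Matrix ι ι F) *ᵥ x = -x := hx
    rw [hW, Matrix.toLin'_apply, Matrix.mulVec_mulVec, ← Units.val_mul]
    have h3 : v * r = -1 * (r * v) := by rw [hr, ← mul_assoc, neg_one_sq, one_mul]
    rw [h3, Units.val_mul, Units.val_neg, Units.val_one, neg_one_mul, Matrix.neg_mulVec, Units.val_mul,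
      ← Matrix.mulVec_mulVec, hx', Matrix.mulVec_neg, neg_neg]
  have hd' : finrank F W' ≤ finrank F W := by
    rw [(Submodule.equivMapOfInjective _ hinj W').finrank_eq]
    exact Submodule.finrank_mono hle
  exact ⟨W, fun w hw => hw, by omega⟩

/-- powers of a Siegel transformation -/
theorem siegel_pow {q : QuadraticForm F (ι → F)} {u w : ι → F} (hu : q u = 0) (hw : polar q u w = 0) {t : GL ι F}
    (ht : ∀ x, (t : Matrix ι ι F) *ᵥ x = x + polar q u x • w - polar q w x • u - (q w * polar q u x) • u) (n : ℕ)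
    (x : ι → F) : ((t ^ n : GL ι F) : Matrix ι ι F) *ᵥ x =
      x + ((n : F) * polar q u x) • w - ((n : F) * polar q w x) • u - ((n : F) * n * (q w * polar q u x)) • u := by
  have huu : polar q u u = 0 := by rw [QuadraticMap.polar_self, hu, smul_zero]
  have hww : polar q w w = 2 * q w := by rw [QuadraticMap.polar_self, two_nsmul, two_mul]
  have hwu : polar q w u = 0 := by rw [QuadraticMap.polar_comm, hw]
  induction n with
  | zero =>
    rw [pow_zero, Units.val_one, Matrix.one_mulVec, Nat.cast_zero]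
    simp only [zero_mul, zero_smul, add_zero, sub_zero]
  | succ n ih =>
    have h1 : polar q u (((t ^ n : GL ι F) : Matrix ι ι F) *ᵥ x) = polar q u x := by
      rw [ih]
      simp only [sub_eq_add_neg, ← neg_smul, QuadraticMap.polar_add_right, QuadraticMap.polar_smul_right, hw, huu, smul_zero,
        add_zero]
    have h2 : polar q w (((t ^ n : GL ι F) : Matrix ι ι F) *ᵥ x) = polar q w x + (n : F) * polar q u x * (2 * q w) := by
      rw [ih]
      simp only [sub_eq_add_neg, ← neg_smul, QuadraticMap.polar_add_right, QuadraticMap.polar_smul_right, hww, hwu,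
        mul_zero, add_zero, smul_eq_mul]
    rw [pow_succ', Units.val_mul, ← Matrix.mulVec_mulVec, ht, h1, h2, ih, Nat.cast_succ]
    module

/-- a Siegel transformation which normalises `R` does not exist -/
theorem siegel_not_norm [Fintype F] {R : Subgroup (GL ι F)} (hn : 5 ≤ Fintype.card ι) (h2 : (2 : F) ≠ 0)
    (habs : ActsAbsolutelyIrreducibly (matrixSet R)) (h : PM R) {q : QuadraticForm F (ι → F)}
    (hnd : ∀ x, x ≠ 0 → ∃ y, polar q x y ≠ 0) {u w : ι → F}
    (hu : q u = 0) (hu0 : u ≠ 0) (hw : polar q u w = 0) (hwu : ∀ c : F, w ≠ c • u) {t : GL ι F}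
    (ht : ∀ x, (t : Matrix ι ι F) *ᵥ x = x + polar q u x • w - polar q w x • u - (q w * polar q u x) • u)
    (htn : ∀ x ∈ R, t * x * t⁻¹ ∈ R) : False := by
  have hpo : Odd (ringChar F) := by
    rcases (CharP.char_is_prime F (ringChar F)).eq_two_or_odd' with h3 | h3
    · exfalso
      apply h2
      have := CharP.cast_eq_zero F (ringChar F)
      rw [h3] at this
      exact_mod_cast this
    · exact h3
  have hp0 : ((ringChar F : ℕ) : F) = 0 := CharP.cast_eq_zero F (ringChar F)
  have htp : t ^ ringChar F = 1 := by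
    apply Units.ext
    apply Matrix.toLin'.injective
    apply LinearMap.ext
    intro x
    rw [Matrix.toLin'_apply, Matrix.toLin'_apply, siegel_pow hu hw ht, hp0, Units.val_one, Matrix.one_mulVec]
    simp only [zero_mul, zero_smul, add_zero, sub_zero]
  let φ : (ι → F) →ₗ[F] F × F := (polarBilin q u).prod (polarBilin q w)
  have hfix : ∀ x ∈ LinearMap.ker φ, (t : Matrix ι ι F) *ᵥ x = x := by
    intro x hx
    have h3 : (polar q u x, polar q w x) = (0, 0) := hx
    have h4 := congrArg Prod.fst h3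
    have h5 := congrArg Prod.snd h3
    simp only at h4 h5
    rw [ht, h4, h5]
    simp only [mul_zero, zero_smul, add_zero, sub_zero]
  have hdim : Fintype.card ι < 2 * finrank F (LinearMap.ker φ) := by
    have h1 := LinearMap.finrank_range_add_finrank_ker φ
    have h3 : finrank F (LinearMap.range φ) ≤ 2 := by
      have := Submodule.finrank_le (LinearMap.range φ)
      rwa [finrank_prod, finrank_self] at this
    rw [Module.finrank_fintype_fun_eq_card] at h1
    omega
  have hs := scalar_of_fix h2 habs h (t := t) htn hpo htp _ hfix hdim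
  obtain ⟨c, hc⟩ := (mem_scalars_iff _).1 hs
  have hval : ∀ x, x + polar q u x • w - polar q w x • u - (q w * polar q u x) • u = (c : F) • x := by
    intro x
    rw [← ht, hc, Matrix.smul_mulVec, Matrix.one_mulVec]
  have huu : polar q u u = 0 := by rw [QuadraticMap.polar_self, hu, smul_zero]
  have hwu' : polar q w u = 0 := by rw [QuadraticMap.polar_comm, hw]
  have h1 := hval u
  rw [huu, hwu'] at h1
  simp only [mul_zero, zero_smul, add_zero, sub_zero] at h1
  have hc1 : (c : F) = 1 := by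
    have h3 : ((1 : F) - c) • u = 0 := by rw [sub_smul, one_smul, ← h1, sub_self]
    have h4 := (smul_eq_zero.1 h3).resolve_right hu0
    exact (sub_eq_zero.1 h4).symm
  obtain ⟨y, hy⟩ := hnd u hu0
  have h3 := hval y
  rw [hc1, one_smul] at h3
  apply hwu ((polar q u y)⁻¹ * (polar q w y + q w * polar q u y))
  have h4 : polar q u y • w = (polar q w y + q w * polar q u y) • u := by
    rw [add_smul]
    rw [← sub_eq_zero, ← sub_eq_zero.2 h3]
    abel
  rw [mul_smul, ← h4, inv_smul_smul₀ hy]

/-- **S3499-III-Om-C6** -/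
theorem om_c6 {Q : Type*} [Group Q] [Finite Q] {A : Subgroup Q} {Γ : Subgroup (MulAut Q)} (h : EPT A Γ)
    {F : Type*} [Field F] [Fintype F] {ι : Type} [Fintype ι] [DecidableEq ι] {Qf : (ι → F) → F}
    (hQ : IsNondegenerateQuadraticForm Qf) (hn : 7 ≤ Fintype.card ι) (m : Model Q (omegaGL Qf)) {r j : ℕ}
    {R : Subgroup (GL ι F)} (hRA : R ≤ m.hat A) (hRn : ∀ g ∈ m.hat A, ∀ x ∈ R, g * x * g⁻¹ ∈ R)
    (habs : ActsAbsolutelyIrreducibly (matrixSet R)) (hR : IsSymplecticTypeGroup r R) (hchar : ringChar F ≠ r)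
    (hcard : Fintype.card ι = r ^ j) (hc : center R = (scalars ι F).subgroupOf R)
    (ht : (Odd r ∧ Nat.card (center R) = r ∧ Nat.card R = r ^ (1 + 2 * j)) ∨
      (r = 2 ∧ Nat.card (center R) = 4 ∧ Nat.card R = 2 ^ (2 + 2 * j)) ∨
      (r = 2 ∧ Nat.card (center R) = 2 ∧ Nat.card R = 2 ^ (1 + 2 * j))) : False := by
  classical
  have hne : Nonempty ι := Fintype.card_pos_iff.1 (by omega)
  have hiso : ∀ g ∈ m.hat A, ∀ x, Qf ((g : Matrix ι ι F) *ᵥ x) = Qf x := by
    intro g hg x
    exact Cfsg.Agent.H925.omegaGL_le_iso Qf (m.hat_le A hg) x x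
  have hpol : ∀ g ∈ m.hat A, ∀ x y, polar Qf ((g : Matrix ι ι F) *ᵥ x) ((g : Matrix ι ι F) *ᵥ y) = polar Qf x y := by
    intro g hg x y
    simp only [polar, ← Matrix.mulVec_add, hiso g hg]
  -- the centre
  have hZ2 : Nat.card (center R) ≤ 2 := by
    obtain ⟨x, hx⟩ : ∃ x, Qf x ≠ 0 := by
      by_contra hcon
      push Not at hcon
      obtain ⟨x, hx0⟩ : ∃ x : ι → F, x ≠ 0 := exists_ne 0
      obtain ⟨y, hy⟩ := (hQ.nondegenerate x hx0).1
      apply hy
      simp only [polar, hcon, sub_zero]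
    have h1 : ∀ z : center R, ((z : R) : GL ι F) = 1 ∨ ((z : R) : GL ι F) = -1 := by
      intro z
      have h3 : (z : R) ∈ (scalars ι F).subgroupOf R := hc ▸ z.2
      rw [mem_subgroupOf, mem_scalars_iff] at h3
      obtain ⟨c, hc'⟩ := h3
      have h4 := hiso _ (hRA (z : R).2) x
      rw [hc', Matrix.smul_mulVec, Matrix.one_mulVec, hQ.smul] at h4
      have h5 : (c : F) ^ 2 = 1 := mul_right_cancel₀ hx (h4.trans (one_mul _).symm)
      rcases mul_self_eq_one_iff.1 ((pow_two _).symm.trans h5) with h6 | h6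
      · left
        apply Units.ext
        rw [hc', h6, one_smul, Units.val_one]
      · right
        apply Units.ext
        rw [hc', h6, Units.val_neg, Units.val_one, neg_smul, one_smul]
    have h3 : Nat.card (center R) ≤ Nat.card ({1, -1} : Set (GL ι F)) :=
      Nat.card_le_card_of_injective (fun z => (⟨((z : R) : GL ι F), by
        rcases h1 z with h | h
        · exact Or.inl h
        · exact Or.inr h⟩ : ({1, -1} : Set (GL ι F)))) (fun z z' hz => by
        have h5 := congrArg (fun x : ({1, -1} : Set (GL ι F)) => (x : GL ι F)) hz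
        exact Subtype.ext (Subtype.ext h5))
    refine h3.trans ?_
    change ({1, -1} : Set (GL ι F)).ncard ≤ 2
    exact (Set.ncard_insert_le _ _).trans (by rw [Set.ncard_singleton])
  obtain ⟨rfl, hZ, hRc⟩ : r = 2 ∧ Nat.card (center R) = 2 ∧ Nat.card R = 2 ^ (1 + 2 * j) := by
    rcases ht with ⟨h1, h3, -⟩ | ⟨-, h3, -⟩ | h3
    · exfalso
      have h4 := hR.prime.two_le
      obtain ⟨i, hi⟩ := h1
      omega
    · omega
    · exact h3
  have h2 : (2 : F) ≠ 0 := by
    intro h2
    apply hchar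
    have h3 : CharP F 2 := CharTwo.of_one_ne_zero_of_two_eq_zero one_ne_zero h2
    exact ringChar.eq F 2 ▸ rfl
  have hPM := pm_of hR habs hZ
  have hj : 3 ≤ j := by
    by_contra h3
    have h4 : 2 ^ j ≤ 2 ^ 2 := Nat.pow_le_pow_right (by norm_num) (by omega)
    omega
  have hcard8 : 8 < Nat.card R := by
    have h3 : 2 ^ 7 ≤ Nat.card R := by
      rw [hRc]
      exact Nat.pow_le_pow_right (by norm_num) (by omega)
    omega
  have hn8 : 8 ≤ Fintype.card ι := by
    rw [hcard]
    exact Nat.pow_le_pow_right (n := 2) (by norm_num) hj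
  obtain ⟨v, hv, hv1, hv2, hv3⟩ := exists_invol hPM hcard8
  have hvs := not_scalar_of_invol hv1 hv2 hv3
  -- `r v = -v r`
  obtain ⟨s, hs, hsv⟩ : ∃ s ∈ R, s * v = -1 * (v * s) := by
    by_contra hcon
    push Not at hcon
    apply hvs
    have h3 : (⟨v, hv⟩ : R) ∈ center R := by
      rw [mem_center_iff]
      rintro ⟨s, hs⟩
      apply Subtype.ext
      rcases hPM.comm s hs v hv with h4 | h4
      · exact h4
      · exact absurd h4 (hcon s hs)
    rw [hc, mem_subgroupOf] at h3
    exact h3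
  obtain ⟨W, hW, hWd⟩ := finrank_fixed h2 hv1 hsv
  set q := Cfsg.Agent.H925.qf hQ with hq
  have hqc : (q : (ι → F) → F) = Qf := rfl
  obtain ⟨u', hu'0, hu'⟩ := Cfsg.Agent.H181.StdBasis.exists_singular (q.comp W.subtype) (by omega)
  set u : ι → F := (u' : ι → F) with hu
  have hu0 : u ≠ 0 := fun e => hu'0 (Subtype.ext e)
  have hqu : q u = 0 := hu'
  -- the second vector
  obtain ⟨w, hwW, hwu, hwc⟩ : ∃ w ∈ W, polar q u w = 0 ∧ ∀ c : F, w ≠ c • u := by
    by_contra hcon
    push Not at hcon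
    let ψ : W →ₗ[F] F := (polarBilin q u).comp W.subtype
    have h3 := LinearMap.finrank_range_add_finrank_ker ψ
    have h4 : finrank F (LinearMap.range ψ) ≤ 1 := by
      have := Submodule.finrank_le (LinearMap.range ψ)
      rwa [finrank_self] at this
    have h5 : LinearMap.ker ψ ≤ Submodule.span F {u'} := by
      intro x hx
      obtain ⟨c, hc⟩ := hcon x x.2 hx
      rw [Submodule.mem_span_singleton]
      exact ⟨c, Subtype.ext hc.symm⟩
    have h6 := Submodule.finrank_mono h5
    have h7 := finrank_span_singleton (K := F) hu'0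
    omega
  obtain ⟨t, htO, ht'⟩ := Cfsg.Agent.H925.exists_siegel hQ (by omega) (u := u) (w := w) hqu hwu
  have htA : t ∈ m.hat A := by
    refine mem_hat_of_comm m h Nat.prime_two hRA hRn hR.pGroup hv hvs htO ?_
    apply Units.ext
    apply Matrix.toLin'.injective
    apply LinearMap.ext
    intro x
    have h3 : polar Qf u ((v : Matrix ι ι F) *ᵥ x) = polar Qf u x := by
      rw [← hpol v (hRA hv) u x, hW u u'.2]
    have h4 : polar Qf w ((v : Matrix ι ι F) *ᵥ x) = polar Qf w x := by
      rw [← hpol v (hRA hv) w x, hW w hwW]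
    rw [Matrix.toLin'_apply, Matrix.toLin'_apply, Units.val_mul, Units.val_mul, ← Matrix.mulVec_mulVec,
      ← Matrix.mulVec_mulVec, ht', ht', h3, h4, Matrix.mulVec_sub, Matrix.mulVec_sub, Matrix.mulVec_add, Matrix.mulVec_smul,
      Matrix.mulVec_smul, Matrix.mulVec_smul, hW u u'.2, hW w hwW]
  exact siegel_not_norm (by omega) h2 habs hPM (q := q) (fun x hx => (hQ.nondegenerate x hx).2) hqu hu0 hwu hwc ht'
    (hRn t htA)

end Cfsg.Agent.H491.EP
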